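import Mathlib
import Cfsg.Agent.Lib.Helper5.CS4.Defs

/-!
S4146 (project CS4), package [Q] (helper83): `m` is a power of `r`.
-/

set_option autoImplicit false

namespace Cfsg.Agent.Lib.Helper83.CS4

open Cfsg.Agent.Lib.Helper5.CS4

universe u

theorem pkgQ (hQC : PkgQC.{u}) (hProd : PkgProd.{u}) : PkgQ.{u} := by
  intro G _ _ n m hctx U hU hUm a r k hr hoa hca haU hw
  obtain ⟨w, hwU, hcw⟩ := hw
  have hctx' := hctx
  obtain ⟨hn1, hm1, hnm, hrange⟩ := hctx
  obtain ⟨-, hidx⟩ := hProd n m hnm a w hca hcw
  have hDK : Subgroup.centralizer ({a} : Set G) ⊓ Subgroup.centralizer ({w} : Set G)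
      ≤ Subgroup.centralizer ({a} : Set G) := inf_le_left
  have hKn : (Subgroup.centralizer ({a} : Set G)).index = n := hca
  have hrel : (Subgroup.centralizer ({a} : Set G) ⊓ Subgroup.centralizer ({w} : Set G)).relIndex
      (Subgroup.centralizer ({a} : Set G)) = m := by
    have h1 := Subgroup.relIndex_mul_index hDK
    rw [hidx, hKn] at h1
    exact Nat.eq_of_mul_eq_mul_right (by omega : 0 < n) (by rw [h1, mul_comm])
  have hnt : ∀ {t : ℕ}, t.Prime → t ∣ m → t = r := by
    intro t ht htm
    by_contra htr
    haveI : Fact t.Prime := ⟨ht⟩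
    obtain ⟨T⟩ : Nonempty (Sylow t ↥(Subgroup.centralizer ({a} : Set G))) := inferInstance
    have hTD : (T : Subgroup ↥(Subgroup.centralizer ({a} : Set G))) ≤
        (Subgroup.centralizer ({a} : Set G) ⊓ Subgroup.centralizer ({w} : Set G)).subgroupOf
          (Subgroup.centralizer ({a} : Set G)) := by
      intro y hy
      rw [Subgroup.mem_subgroupOf]
      refine Subgroup.mem_inf.mpr ⟨y.2, ?_⟩
      obtain ⟨j, hj⟩ := T.isPGroup' ⟨y, hy⟩
      have hj' : (y : G) ^ t ^ j = 1 := by
        have h1 := congrArg (fun z : ↥(T : Subgroup ↥(Subgroup.centralizer ({a} : Set G))) =>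
          ((z : ↥(Subgroup.centralizer ({a} : Set G))) : G)) hj
        simpa using h1
      have hyo : (orderOf (y : G)).Coprime r := by
        have h1 : orderOf (y : G) ∣ t ^ j := orderOf_dvd_of_pow_eq_one hj'
        have h2 : (t ^ j).Coprime r :=
          Nat.Coprime.pow_left j ((Nat.coprime_primes ht hr).mpr htr)
        exact Nat.Coprime.coprime_dvd_left h1 h2
      have hya : (y : G) * a = a * (y : G) := by
        have h1 := y.2
        rw [Subgroup.mem_centralizer_iff] at h1
        exact (h1 a (Set.mem_singleton a)).symm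
      have h3 := hQC n m hctx' U hU hUm a r k hr hoa hca haU (y : G) hya hyo w hwU
      show (y : G) ∈ Subgroup.centralizer ({w} : Set G)
      rw [Subgroup.mem_centralizer_iff]
      intro h hh
      rw [Set.mem_singleton_iff] at hh
      rw [hh]; exact h3.symm
    have h1 : ((Subgroup.centralizer ({a} : Set G) ⊓
        Subgroup.centralizer ({w} : Set G)).subgroupOf
          (Subgroup.centralizer ({a} : Set G))).index ∣
        (T : Subgroup ↥(Subgroup.centralizer ({a} : Set G))).index :=
      Subgroup.index_dvd_of_le hTD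
    have h2 : ¬ t ∣ (T : Subgroup ↥(Subgroup.centralizer ({a} : Set G))).index :=
      T.not_dvd_index
    have h3 : ((Subgroup.centralizer ({a} : Set G) ⊓
        Subgroup.centralizer ({w} : Set G)).subgroupOf
          (Subgroup.centralizer ({a} : Set G))).index = m := hrel
    rw [h3] at h1
    exact h2 (dvd_trans htm h1)
  exact ⟨_, Nat.eq_prime_pow_of_unique_prime_dvd (by omega) hnt⟩

end Cfsg.Agent.Lib.Helper83.CS4
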