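import Mathlib
import Cfsg.Agent.Lib.Helper5.CS4.Defs

/-!
S4146 (project CS4), package [QC] (helper83): `r'`-elements of `C(a)` centralize `U`.
-/

set_option autoImplicit false

namespace Cfsg.Agent.Lib.Helper83.CS4

open Cfsg.Agent.Lib.Helper5.CS4

universe u

/-- For `U` normal and `D` a subgroup of a finite group, `|U D : D|` divides `|U|`. -/
theorem relIndex_sup_dvd_card {G : Type u} [Group G] [Finite G] (U D : Subgroup G)
    (hU : U.Normal) : D.relIndex (U ⊔ D) ∣ Nat.card U := by
  have c1 : Nat.card D * D.relIndex (U ⊔ D) = Nat.card ↥(U ⊔ D) := by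
    have h := Subgroup.relIndex_mul_relIndex ⊥ D (U ⊔ D) bot_le le_sup_right
    rwa [Subgroup.relIndex_bot_left, Subgroup.relIndex_bot_left] at h
  have c2 : Nat.card U * U.relIndex (U ⊔ D) = Nat.card ↥(U ⊔ D) := by
    have h := Subgroup.relIndex_mul_relIndex ⊥ U (U ⊔ D) bot_le le_sup_left
    rwa [Subgroup.relIndex_bot_left, Subgroup.relIndex_bot_left] at h
  have c3 : U.relIndex (U ⊔ D) = U.relIndex D := Subgroup.relIndex_sup_left D U
  have c4 : Nat.card ↥(U ⊓ D) * U.relIndex D = Nat.card D := by
    have h := Subgroup.relIndex_mul_relIndex ⊥ (U ⊓ D) D bot_le inf_le_right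
    rwa [Subgroup.relIndex_bot_left, Subgroup.relIndex_bot_left,
      Subgroup.inf_relIndex_right] at h
  have hpos : 0 < U.relIndex D := by
    rcases Nat.eq_zero_or_pos (U.relIndex D) with h | h
    · rw [h, Nat.mul_zero] at c4
      exact absurd c4.symm (Nat.card_pos).ne'
    · exact h
  have key : Nat.card ↥(U ⊓ D) * D.relIndex (U ⊔ D) = Nat.card U := by
    have h1 : Nat.card ↥(U ⊓ D) * U.relIndex D * D.relIndex (U ⊔ D)
        = Nat.card U * U.relIndex D := by rw [c4, c1, ← c2, c3]
    have h2 : (Nat.card ↥(U ⊓ D) * D.relIndex (U ⊔ D)) * U.relIndex D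
        = Nat.card U * U.relIndex D := by rw [← h1]; ring
    exact Nat.eq_of_mul_eq_mul_right hpos h2
  exact Dvd.intro_left _ key

theorem pkgQC (hCop : PkgCop.{u}) : PkgQC.{u} := by
  intro G _ _ n m hctx U hU hUm a r k hr hoa hca haU y hya hyr u hu
  obtain ⟨hn1, hm1, hnm, hrange⟩ := hctx
  have hcop : Subgroup.centralizer ({a * y} : Set G)
      = Subgroup.centralizer ({a} : Set G) ⊓ Subgroup.centralizer ({y} : Set G) :=
    hCop a y hya.symm (by rw [hoa]; exact Nat.Coprime.pow_left k hyr.symm)
  have hKn : (Subgroup.centralizer ({a} : Set G)).index = n := hca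
  have hDK : Subgroup.centralizer ({a} : Set G) ⊓ Subgroup.centralizer ({y} : Set G)
      ≤ Subgroup.centralizer ({a} : Set G) := inf_le_left
  have hDidx : (Subgroup.centralizer ({a} : Set G) ⊓ Subgroup.centralizer ({y} : Set G)).index
      = n ∨ (Subgroup.centralizer ({a} : Set G) ⊓ Subgroup.centralizer ({y} : Set G)).index
      = n * m := by
    have h1 : cidx (a * y) ∈ Set.range (fun x : G => cidx x) := ⟨a * y, rfl⟩
    rw [hrange] at h1
    have h2 : n ∣ (Subgroup.centralizer ({a} : Set G)
        ⊓ Subgroup.centralizer ({y} : Set G)).index := by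
      rw [← hKn]; exact Subgroup.index_dvd_of_le hDK
    have h3 : cidx (a * y) = (Subgroup.centralizer ({a} : Set G)
        ⊓ Subgroup.centralizer ({y} : Set G)).index := by
      show (Subgroup.centralizer ({a * y} : Set G)).index = _
      rw [hcop]
    rw [h3] at h1
    rcases h1 with h | h | h | h
    · rw [h] at h2
      exact absurd (Nat.dvd_one.mp h2) (by omega)
    · exact Or.inl h
    · rw [h] at h2
      exact absurd (Nat.Coprime.eq_one_of_dvd hnm h2) (by omega)
    · exact Or.inr h
  have hrel : (Subgroup.centralizer ({a} : Set G) ⊓ Subgroup.centralizer ({y} : Set G)).relIndex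
      (Subgroup.centralizer ({a} : Set G)) ∣ m := by
    have h1 := Subgroup.relIndex_mul_index hDK
    rw [hKn] at h1
    rcases hDidx with h | h
    · rw [h] at h1
      have h2 : (Subgroup.centralizer ({a} : Set G)
          ⊓ Subgroup.centralizer ({y} : Set G)).relIndex
          (Subgroup.centralizer ({a} : Set G)) = 1 := by
        have h3 : (Subgroup.centralizer ({a} : Set G)
          ⊓ Subgroup.centralizer ({y} : Set G)).relIndex
          (Subgroup.centralizer ({a} : Set G)) * n = 1 * n := by rw [h1, one_mul]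
        exact Nat.eq_of_mul_eq_mul_right (by omega) h3
      rw [h2]; exact one_dvd _
    · rw [h] at h1
      have h2 : (Subgroup.centralizer ({a} : Set G)
          ⊓ Subgroup.centralizer ({y} : Set G)).relIndex
          (Subgroup.centralizer ({a} : Set G)) = m := by
        have h3 : (Subgroup.centralizer ({a} : Set G)
          ⊓ Subgroup.centralizer ({y} : Set G)).relIndex
          (Subgroup.centralizer ({a} : Set G)) * n = m * n := by rw [h1, mul_comm]
        exact Nat.eq_of_mul_eq_mul_right (by omega) h3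
      rw [h2]
  have hUK : U ≤ Subgroup.centralizer ({a} : Set G) := by
    intro v hv
    rw [Subgroup.mem_centralizer_iff]
    intro h hh
    rw [Set.mem_singleton_iff] at hh
    rw [hh]; exact haU v hv
  have hXK : U ⊔ (Subgroup.centralizer ({a} : Set G) ⊓ Subgroup.centralizer ({y} : Set G))
      ≤ Subgroup.centralizer ({a} : Set G) := sup_le hUK hDK
  have hd1 : (Subgroup.centralizer ({a} : Set G) ⊓ Subgroup.centralizer ({y} : Set G)).relIndex
      (U ⊔ (Subgroup.centralizer ({a} : Set G) ⊓ Subgroup.centralizer ({y} : Set G))) ∣ m :=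
    dvd_trans (Dvd.intro _ (Subgroup.relIndex_mul_relIndex _ _ _ le_sup_right hXK)) hrel
  have hd2 := relIndex_sup_dvd_card U
    (Subgroup.centralizer ({a} : Set G) ⊓ Subgroup.centralizer ({y} : Set G)) hU
  have h1 : (Subgroup.centralizer ({a} : Set G) ⊓ Subgroup.centralizer ({y} : Set G)).relIndex
      (U ⊔ (Subgroup.centralizer ({a} : Set G) ⊓ Subgroup.centralizer ({y} : Set G))) = 1 :=
    Nat.eq_one_of_dvd_coprimes hUm hd2 hd1
  rw [Subgroup.relIndex_eq_one] at h1
  have hu' : u ∈ Subgroup.centralizer ({y} : Set G) := (h1 (Subgroup.mem_sup_left hu)).2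
  rw [Subgroup.mem_centralizer_iff] at hu'
  exact hu' y (Set.mem_singleton y)

end Cfsg.Agent.Lib.Helper83.CS4
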