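import Mathlib
import Cfsg.Agent.Lib.Helper5.CS4.Defs

/-!
S4146 (project CS4), package [STA] (helper83): the structure `StageA` reached when there are no
good elements.
-/

set_option autoImplicit false

namespace Cfsg.Agent.Lib.Helper83.CS4

open Cfsg.Agent.Lib.Helper5.CS4

universe u

theorem cidx_eq_one_of_mem_center {G : Type u} [Group G] (x : G) (hx : x ∈ Subgroup.center G) :
    cidx x = 1 := by
  have h1 : Subgroup.centralizer ({x} : Set G) = ⊤ := by
    rw [Subgroup.centralizer_eq_top_iff_subset]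
    intro y hy
    rw [Set.mem_singleton_iff] at hy
    rw [hy]; exact hx
  show (Subgroup.centralizer ({x} : Set G)).index = 1
  rw [h1, Subgroup.index_top]

theorem pkgStA (hU : PkgU.{u}) (hBeta : PkgBeta.{u}) (hDich : PkgDich.{u}) (hQ : PkgQ.{u})
    (hB4 : PkgSylCentral.{u}) : PkgStA.{u} := by
  intro G _ _ n m hctx hmn hGn hGm
  have hctx' := hctx
  obtain ⟨hn1, hm1, hnm, hrange⟩ := hctx
  obtain ⟨U, hUn, hUc, hUiff⟩ := hU n m hctx' hmn hGm
  -- |U| is prime to m
  have hUm : (Nat.card U).Coprime m := by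
    apply Nat.Coprime.symm
    apply Nat.coprime_of_dvd
    intro t ht htm htU
    haveI : Fact t.Prime := ⟨ht⟩
    obtain ⟨x, hx⟩ := exists_prime_orderOf_dvd_card' (G := ↥U) t htU
    have hx' : orderOf (x : G) = t := by rw [Subgroup.orderOf_coe]; exact hx
    have h1 := ((hUiff (x : G)).mp x.2).2
    rw [hx'] at h1
    exact absurd (Nat.Coprime.eq_one_of_dvd h1 htm) ht.one_lt.ne'
  -- class sizes
  have hcls : ∀ x : G, cidx x = 1 ∨ cidx x = n ∨ cidx x = m ∨ cidx x = n * m := by
    intro x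
    have h1 : cidx x ∈ Set.range (fun x : G => cidx x) := ⟨x, rfl⟩
    rw [hrange] at h1
    exact h1
  -- (L)
  have L : ∀ (a' : G) (r' k' : ℕ), r'.Prime → orderOf a' = r' ^ k' → cidx a' = n → r' ∣ m := by
    intro a' r' k' hr' hoa' hca'
    have hrn : ¬ r' ∣ n := fun h => hGn ⟨a', r', k', hr', hoa', hca', h⟩
    by_contra hrm
    have h1 : ∀ x : G, ¬ r' ∣ cidx x := by
      intro x hx
      rcases hcls x with h | h | h | h
      · rw [h] at hx
        exact absurd (Nat.dvd_one.mp hx) hr'.one_lt.ne'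
      · rw [h] at hx; exact hrn hx
      · rw [h] at hx; exact hrm hx
      · rw [h] at hx
        rcases (Nat.Prime.dvd_mul hr').mp hx with h2 | h2
        · exact hrn h2
        · exact hrm h2
    have h2 := cidx_eq_one_of_mem_center a' (hB4 r' hr' h1 a' k' hoa')
    omega
  obtain ⟨a, w, r, k, s, j, hr, hoa, hca, hs, how, hcw, haw⟩ := hBeta n m hctx' hGn hGm
  have hsm : ¬ s ∣ m := fun h => hGm ⟨w, s, j, hs, how, hcw, h⟩
  have hwU : w ∈ U := by
    rw [hUiff]
    refine ⟨Or.inr hcw, ?_⟩
    rw [how]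
    exact Nat.Coprime.pow_left j ((Nat.Prime.coprime_iff_not_dvd hs).mpr hsm)
  have hwc : w ∉ Subgroup.center G := by
    intro h
    have h1 := cidx_eq_one_of_mem_center w h
    omega
  have hrm : r ∣ m := L a r k hr hoa hca
  have hcopU : ∀ k' : ℕ, (r ^ k').Coprime (Nat.card U) := by
    intro k'
    apply Nat.Coprime.pow_left
    rw [Nat.Prime.coprime_iff_not_dvd hr]
    intro h
    have h2 : r ∣ Nat.gcd (Nat.card U) m := Nat.dvd_gcd h hrm
    rw [Nat.Coprime.gcd_eq_one hUm] at h2
    exact absurd (Nat.dvd_one.mp h2) hr.one_lt.ne'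
  have hU1m : ∀ x ∈ U, cidx x = 1 ∨ cidx x = m := fun x hx => ((hUiff x).mp hx).1
  have haU : ∀ u ∈ U, a * u = u * a := by
    rcases hDich n m hctx' U hUn hUc hU1m a hca (by rw [hoa]; exact hcopU k) with h | h
    · exact h
    · exact absurd (h w hwU haw) hwc
  obtain ⟨e, he⟩ := hQ n m hctx' U hUn hUm a r k hr hoa hca haU ⟨w, hwU, hcw⟩
  have he0 : 0 < e := by
    rcases Nat.eq_zero_or_pos e with h | h
    · rw [h, pow_zero] at he; omega
    · exact h
  refine ⟨r, e, U, a, he, ?_⟩
  subst he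
  exact
    { hq := hr
      ctx := hctx'
      U_normal := hUn
      U_comm := hUc
      U_iff := by
        intro x
        rw [hUiff, Nat.coprime_pow_right_iff he0]
      w_ex := ⟨w, hwU, hcw⟩
      hTn := by
        intro a' r' k' hr' hoa' hca'
        have h1 := L a' r' k' hr' hoa' hca'
        exact (Nat.prime_dvd_prime_iff_eq hr' hr).mp (hr'.dvd_of_dvd_pow h1)
      hTm := by
        intro b s' k' hs' hob hcb hsr
        apply hGm
        refine ⟨b, s', k', hs', hob, hcb, ?_⟩
        rw [hsr]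
        exact dvd_pow_self r he0.ne'
      a₀_order := ⟨k, hoa⟩
      a₀_type := hca
      a₀_cent := haU
      dich := by
        intro a' ⟨k', hk'⟩ hca'
        exact hDich n (r ^ e) hctx' U hUn hUc hU1m a' hca' (by rw [hk']; exact hcopU k') }

end Cfsg.Agent.Lib.Helper83.CS4
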